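import Cfsg.Agent.H412.Tc.Defs
import Cfsg.Agent.H618.TcStepC

/-!
# S3621, lemma Dich: a commutative ring of endomorphisms normalized by `A` is a field,
or StepC applies
-/

set_option autoImplicit false

namespace Cfsg.Agent.H734.TcDich

open Equiv Cfsg.Agent.H412.Tc

universe u

/-- The statement of StepC (proved in a file of helper618). -/
def StepCStmt : Prop :=
  ∀ {V : Type u} [AddCommGroup V] [Finite V] (_ : IH.{u} (Nat.card V))
    (A : Subgroup (GV V)) (_ : Group.IsSolvable A) {ι : Type u} [Finite ι]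
    (ε : ι → AddMonoid.End V) (_ : ∀ i, ε i * ε i = ε i)
    (_ : ∀ i j, i ≠ j → ε i * ε j = 0) (_ : ∀ v, (∀ i, ε i v = 0) → v = 0)
    (_ : ∀ i, ε i ≠ 0) (_ : ∃ i j : ι, i ≠ j)
    (_ : ∀ g ∈ A, ∀ i, ∃ j, (g : AddMonoid.End V) * ε i = ε j * g),
    Group.IsSolvable (cl (Aff A))

theorem finite_end (V : Type*) [AddCommGroup V] [Finite V] : Finite (AddMonoid.End V) :=
  DFunLike.finite _

/-- In a finite monoid some positive power of every element is idempotent. -/
theorem exists_pow_idem {M : Type*} [Monoid M] [Finite M] (r : M) :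
    ∃ n : ℕ, 0 < n ∧ r ^ n * r ^ n = r ^ n := by
  obtain ⟨a, b, hab, h⟩ := Finite.exists_ne_map_eq_of_infinite (fun n : ℕ => r ^ (n + 1))
  wlog hlt : a < b generalizing a b
  · exact this b a hab.symm h.symm (by omega)
  obtain ⟨k, rfl⟩ : ∃ k, b = a + k := ⟨b - a, by omega⟩
  have hk : 0 < k := by omega
  have h' : r ^ (a + 1) = r ^ (a + 1 + k) := by
    simpa [add_assoc, add_comm, add_left_comm] using h
  have h1 : ∀ m, r ^ (a + 1 + m) = r ^ (a + 1 + m + k) := by
    intro m
    rw [pow_add, h', ← pow_add]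
    congr 1
    omega
  have h2 : ∀ m j, r ^ (a + 1 + m) = r ^ (a + 1 + m + j * k) := by
    intro m j
    induction j with
    | zero => simp
    | succ j ih =>
      rw [ih]
      have := h1 (m + j * k)
      rw [← add_assoc] at this
      rw [this]
      congr 1
      ring
  have hge : a + 1 ≤ (a + 1) * k := Nat.le_mul_of_pos_right _ hk
  obtain ⟨m, hm⟩ : ∃ m, (a + 1) * k = a + 1 + m := ⟨(a + 1) * k - (a + 1), by omega⟩
  refine ⟨(a + 1) * k, by positivity, ?_⟩
  rw [← pow_add]
  have h3 := h2 m (a + 1)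
  rw [← hm] at h3
  exact h3.symm

section

set_option linter.unusedSectionVars false

variable {V : Type u} [AddCommGroup V] [Finite V] {A : Subgroup (GV V)}
  {R : Subring (AddMonoid.End V)}

/-- A nilpotent element of `R` is zero. -/
theorem reduced (hirr : Irr A) (hcomm : ∀ a ∈ R, ∀ b ∈ R, a * b = b * a)
    (hnorm : ∀ g ∈ A, ∀ r ∈ R,
      (g : AddMonoid.End V) * r * ((g⁻¹ : GV V) : AddMonoid.End V) ∈ R)
    (r : AddMonoid.End V) (hr : r ∈ R) (hn : IsNilpotent r) : r = 0 := by
  classical
  by_cases hV : Nontrivial V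
  swap
  · rw [not_nontrivial_iff_subsingleton] at hV
    ext v
    exact Subsingleton.elim _ _
  -- the common kernel of the nilpotent elements
  let U : AddSubgroup V :=
    { carrier := {v | ∀ s ∈ R, IsNilpotent s → s v = 0}
      add_mem' := by
        intro a b ha hb s hs hsn
        rw [map_add, ha s hs hsn, hb s hs hsn, add_zero]
      zero_mem' := fun s _ _ => map_zero s
      neg_mem' := by
        intro a ha s hs hsn
        rw [map_neg, ha s hs hsn, neg_zero] }
  have hUA : ∀ g ∈ A, ∀ u ∈ U, g • u ∈ U := by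
    intro g hg u hu s hs hsn
    have h1 : ((g⁻¹ : GV V) : AddMonoid.End V) * s * (g : AddMonoid.End V) ∈ R := by
      have := hnorm g⁻¹ (A.inv_mem hg) s hs
      rwa [inv_inv] at this
    have h2 : IsNilpotent (((g⁻¹ : GV V) : AddMonoid.End V) * s * (g : AddMonoid.End V)) := by
      obtain ⟨n, hn⟩ := hsn
      refine ⟨n, ?_⟩
      have h3 : ∀ m, (((g⁻¹ : GV V) : AddMonoid.End V) * s * (g : AddMonoid.End V)) ^ m =
          ((g⁻¹ : GV V) : AddMonoid.End V) * s ^ m * (g : AddMonoid.End V) := by
        intro m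
        induction m with
        | zero => simp
        | succ m ih =>
          rw [pow_succ, ih, pow_succ]
          simp only [mul_assoc, Units.mul_inv_cancel_left]
      rw [h3, hn, mul_zero, zero_mul]
    have h4 := hu _ h1 h2
    have h5 : (g : AddMonoid.End V) ((((g⁻¹ : GV V) : AddMonoid.End V) * s *
        (g : AddMonoid.End V)) u) = s (g • u) := by
      have : (g : AddMonoid.End V) * (((g⁻¹ : GV V) : AddMonoid.End V) * s *
        (g : AddMonoid.End V)) = s * (g : AddMonoid.End V) := by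
        simp only [mul_assoc, Units.mul_inv_cancel_left]
      exact congrArg (fun f : AddMonoid.End V => f u) this
    rw [← h5, h4, map_zero]
  -- a minimal nonzero `R`-invariant subgroup
  let P : AddSubgroup V → Prop := fun W => W ≠ ⊥ ∧ ∀ s ∈ R, ∀ w ∈ W, s w ∈ W
  have hP : ∃ W, P W := ⟨⊤, by
    refine ⟨?_, fun s _ w _ => AddSubgroup.mem_top _⟩
    intro h
    obtain ⟨v, hv⟩ := exists_ne (0 : V)
    apply hv
    have : v ∈ (⊤ : AddSubgroup V) := AddSubgroup.mem_top _
    rw [h] at this
    simpa using this⟩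
  have hfin : Finite (AddSubgroup V) := inferInstance
  obtain ⟨W, hW⟩ : ∃ W, Minimal P W := by
    obtain ⟨W0, hW0⟩ := hP
    obtain ⟨W, -, hW⟩ := (Set.toFinite {W | P W}).exists_le_minimal hW0
    exact ⟨W, hW⟩
  have hWU : W ≤ U := by
    intro w hw s hs hsn
    -- the kernel of `s` on `W`
    let K : AddSubgroup V :=
      { carrier := {x | x ∈ W ∧ s x = 0}
        add_mem' := by
          rintro a b ⟨ha, ha'⟩ ⟨hb, hb'⟩
          exact ⟨W.add_mem ha hb, by rw [map_add, ha', hb', add_zero]⟩
        zero_mem' := ⟨W.zero_mem, map_zero s⟩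
        neg_mem' := by
          rintro a ⟨ha, ha'⟩
          exact ⟨W.neg_mem ha, by rw [map_neg, ha', neg_zero]⟩ }
    have hK : P K := by
      refine ⟨?_, ?_⟩
      · obtain ⟨n, hn⟩ := hsn
        obtain ⟨w0, hw0, hw0'⟩ : ∃ w ∈ W, w ≠ 0 := by
          by_contra hcon
          push Not at hcon
          exact hW.prop.1 ((AddSubgroup.eq_bot_iff_forall _).2 hcon)
        have hex : ∃ m, (s ^ m) w0 = 0 := ⟨n, by rw [hn]; rfl⟩
        let m := Nat.find hex
        have hm : (s ^ m) w0 = 0 := Nat.find_spec hex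
        have hm0 : m ≠ 0 := by
          intro h0
          rw [h0, pow_zero] at hm
          exact hw0' hm
        obtain ⟨l, hl⟩ : ∃ l, m = l + 1 := ⟨m - 1, by omega⟩
        have hlne : (s ^ l) w0 ≠ 0 := fun h => by
          have := Nat.find_min' hex h
          change m ≤ l at this
          omega
        have hmem : ∀ j, (s ^ j) w0 ∈ W := by
          intro j
          induction j with
          | zero => simpa using hw0
          | succ j ih =>
            rw [pow_succ']
            exact hW.prop.2 s hs _ ih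
        intro hbot
        have : (s ^ l) w0 ∈ K := by
          refine ⟨hmem l, ?_⟩
          rw [hl, pow_succ'] at hm
          exact hm
        rw [hbot] at this
        exact hlne (by simpa using this)
      · rintro t ht w ⟨hw1, hw2⟩
        refine ⟨hW.prop.2 t ht w hw1, ?_⟩
        have : (s * t) w = (t * s) w := by rw [hcomm s hs t ht]
        change (s * t) w = 0
        rw [this]
        change t (s w) = 0
        rw [hw2, map_zero]
    have := hW.le_of_le hK (fun x hx => hx.1) hw
    exact this.2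
  have hUtop : U = ⊤ := by
    rcases hirr U hUA with h | h
    · exfalso
      rw [h, le_bot_iff] at hWU
      exact hW.prop.1 hWU
    · exact h
  ext v
  have : v ∈ U := by rw [hUtop]; exact AddSubgroup.mem_top _
  exact this r hr hn

/-- Minimal idempotents. -/
def MinIdem (R : Subring (AddMonoid.End V)) (e : AddMonoid.End V) : Prop :=
  e ∈ R ∧ e ≠ 0 ∧ e * e = e ∧ ∀ f ∈ R, f * f = f → f * e = 0 ∨ f * e = e

theorem MinIdem.orth (hcomm : ∀ a ∈ R, ∀ b ∈ R, a * b = b * a) {e f : AddMonoid.End V}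
    (he : MinIdem R e) (hf : MinIdem R f) (hne : e ≠ f) : e * f = 0 := by
  rcases hf.2.2.2 e he.1 he.2.2.1 with h | h
  · exact h
  · rcases he.2.2.2 f hf.1 hf.2.2.1 with h' | h'
    · rw [hcomm e he.1 f hf.1, h']
    · exact absurd (by rw [← h, hcomm e he.1 f hf.1, h']) hne

theorem exists_minIdem (hcomm : ∀ a ∈ R, ∀ b ∈ R, a * b = b * a) (v : V) (hv : v ≠ 0) :
    ∃ e, MinIdem R e ∧ e v ≠ 0 := by
  classical
  have hfe := finite_end V
  -- idempotents not killing `v`, ordered by the size of the range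
  let S : Set (AddMonoid.End V) := {f | f ∈ R ∧ f * f = f ∧ f v ≠ 0}
  have hS : S.Nonempty := ⟨1, R.one_mem, one_mul _, hv⟩
  obtain ⟨e, heS, hmin⟩ :=
    Set.exists_min_image S (fun f => Nat.card f.range) (Set.toFinite _) hS
  obtain ⟨heR, hee, hev⟩ := heS
  refine ⟨e, ⟨heR, fun h => hev (by rw [h]; rfl), hee, ?_⟩, hev⟩
  -- an idempotent below `e` not killing `v` is `e`
  have key : ∀ g ∈ R, g * g = g → (g * e) v ≠ 0 → g * e = e := by
    intro g hg hgg hgv
    have hge : g * e * (g * e) = g * e := by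
      calc g * e * (g * e) = g * (e * g) * e := by simp only [mul_assoc]
        _ = g * (g * e) * e := by rw [hcomm e heR g hg]
        _ = (g * g) * (e * e) := by simp only [mul_assoc]
        _ = g * e := by rw [hgg, hee]
    have h1 : g * e ∈ S := ⟨R.mul_mem hg heR, hge, hgv⟩
    have h2 := hmin _ h1
    have h3 : (g * e).range ≤ e.range := by
      rintro _ ⟨x, rfl⟩
      refine ⟨g x, ?_⟩
      have : (e * g) x = (g * e) x := by rw [hcomm e heR g hg]
      exact this
    have h4 : (g * e).range = e.range := by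
      apply AddSubgroup.eq_of_le_of_card_ge h3
      exact h2
    ext x
    have h5 : e x ∈ (g * e).range := by
      rw [h4]
      exact ⟨x, rfl⟩
    obtain ⟨y, hy⟩ := h5
    have h6 : (g * e) x = g (e x) := rfl
    rw [h6, ← hy]
    have h7 : g * (g * e) = g * e := by rw [← mul_assoc, hgg]
    exact congrArg (fun f : AddMonoid.End V => f y) h7
  intro g hg hgg
  by_cases h1 : (g * e) v = 0
  · left
    have hg' : (1 - g) ∈ R := R.sub_mem R.one_mem hg
    have hgg' : (1 - g) * (1 - g) = 1 - g := by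
      rw [mul_sub, mul_one, sub_mul, one_mul, hgg, sub_self, sub_zero]
    have h2 : ((1 - g) * e) v ≠ 0 := by
      rw [sub_mul, one_mul]
      intro h
      apply hev
      have : e v - (g * e) v = 0 := h
      rw [h1, sub_zero] at this
      exact this
    have h3 := key _ hg' hgg' h2
    rw [sub_mul, one_mul] at h3
    simpa using h3
  · right
    exact key g hg hgg h1

theorem MinIdem.conj (hnorm : ∀ g ∈ A, ∀ r ∈ R,
      (g : AddMonoid.End V) * r * ((g⁻¹ : GV V) : AddMonoid.End V) ∈ R)
    {e : AddMonoid.End V} (he : MinIdem R e) {g : GV V} (hg : g ∈ A) :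
    MinIdem R ((g : AddMonoid.End V) * e * ((g⁻¹ : GV V) : AddMonoid.End V)) := by
  obtain ⟨h1, h2, h3, h4⟩ := he
  refine ⟨hnorm g hg e h1, ?_, ?_, ?_⟩
  · intro h
    apply h2
    have h5 : ((g⁻¹ : GV V) : AddMonoid.End V) * ((g : AddMonoid.End V) * e *
        ((g⁻¹ : GV V) : AddMonoid.End V)) * (g : AddMonoid.End V) = e := by
      simp only [mul_assoc, Units.inv_mul, mul_one, Units.inv_mul_cancel_left]
    rw [← h5, h, mul_zero, zero_mul]
  · calc (g : AddMonoid.End V) * e * ((g⁻¹ : GV V) : AddMonoid.End V) *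
          ((g : AddMonoid.End V) * e * ((g⁻¹ : GV V) : AddMonoid.End V))
        = (g : AddMonoid.End V) * (e * e) * ((g⁻¹ : GV V) : AddMonoid.End V) := by
          simp only [mul_assoc, Units.inv_mul_cancel_left]
      _ = _ := by rw [h3]
  · intro f hf hff
    have hf1 : ((g⁻¹ : GV V) : AddMonoid.End V) * f * (g : AddMonoid.End V) ∈ R := by
      have := hnorm g⁻¹ (A.inv_mem hg) f hf
      rwa [inv_inv] at this
    have hf2 : ((g⁻¹ : GV V) : AddMonoid.End V) * f * (g : AddMonoid.End V) *
        (((g⁻¹ : GV V) : AddMonoid.End V) * f * (g : AddMonoid.End V)) =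
        ((g⁻¹ : GV V) : AddMonoid.End V) * f * (g : AddMonoid.End V) := by
      calc _ = ((g⁻¹ : GV V) : AddMonoid.End V) * (f * f) * (g : AddMonoid.End V) := by
            simp only [mul_assoc, Units.mul_inv_cancel_left]
        _ = _ := by rw [hff]
    have h5 : f * ((g : AddMonoid.End V) * e * ((g⁻¹ : GV V) : AddMonoid.End V)) =
        (g : AddMonoid.End V) * (((g⁻¹ : GV V) : AddMonoid.End V) * f *
          (g : AddMonoid.End V) * e) * ((g⁻¹ : GV V) : AddMonoid.End V) := by
      simp only [mul_assoc, Units.mul_inv_cancel_left]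
    rcases h4 _ hf1 hf2 with h | h
    · left
      rw [h5, h, mul_zero, zero_mul]
    · right
      rw [h5, h]

end

theorem Dich.main' (hC : StepCStmt.{u}) {V : Type u} [AddCommGroup V] [Finite V]
    (hI : IH.{u} (Nat.card V))
    (A : Subgroup (GV V)) (hA : Group.IsSolvable A) (hirr : Irr A)
    (R : Subring (AddMonoid.End V)) (hcomm : ∀ a ∈ R, ∀ b ∈ R, a * b = b * a)
    (hnorm : ∀ g ∈ A, ∀ r ∈ R,
      (g : AddMonoid.End V) * r * ((g⁻¹ : GV V) : AddMonoid.End V) ∈ R) :
    Group.IsSolvable (cl (Aff A)) ∨ ∀ r ∈ R, r ≠ 0 → ∃ s ∈ R, r * s = 1 := by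
  classical
  have hfe := finite_end V
  by_cases h2 : ∃ i j : {e : AddMonoid.End V // MinIdem R e}, i ≠ j
  · left
    refine hC hI A hA (ι := {e : AddMonoid.End V // MinIdem R e}) (fun i => i.1)
      (fun i => i.2.2.2.1) (fun i j hij => MinIdem.orth hcomm i.2 j.2 (fun h => hij (Subtype.ext h)))
      ?_ (fun i => i.2.2.1) h2 ?_
    · intro v hv
      by_contra hne
      obtain ⟨e, he, hev⟩ := exists_minIdem hcomm v hne
      exact hev (hv ⟨e, he⟩)
    · intro g hg i
      refine ⟨⟨_, MinIdem.conj hnorm i.2 hg⟩, ?_⟩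
      simp only [mul_assoc, Units.inv_mul, mul_one]
  · right
    push Not at h2
    intro r hr hr0
    obtain ⟨n, hn, hnn⟩ := exists_pow_idem r
    have hrn : r ^ n ∈ R := R.pow_mem hr n
    have hrn0 : r ^ n ≠ 0 := fun h => hr0 (reduced hirr hcomm hnorm r hr ⟨n, h⟩)
    have h1 : r ^ n = 1 := by
      by_contra hne
      obtain ⟨v, hv⟩ : ∃ v, (r ^ n) v ≠ 0 := by
        by_contra hcon
        push Not at hcon
        exact hrn0 (by ext v; exact hcon v)
      obtain ⟨w, hw⟩ : ∃ w, (1 - r ^ n) w ≠ 0 := by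
        by_contra hcon
        push Not at hcon
        apply hne
        have : (1 : AddMonoid.End V) - r ^ n = 0 := by ext v; exact hcon v
        exact (sub_eq_zero.1 this).symm
      obtain ⟨e, he, hev⟩ := exists_minIdem hcomm _ hv
      obtain ⟨f, hf, hfw⟩ := exists_minIdem hcomm _ hw
      have hef : e = f := congrArg Subtype.val (h2 ⟨e, he⟩ ⟨f, hf⟩)
      subst hef
      have h3 : e * r ^ n = r ^ n * e := hcomm e he.1 _ hrn
      rcases he.2.2.2 (r ^ n) hrn hnn with h4 | h4
      · apply hev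
        have : (e * r ^ n) v = 0 := by rw [h3, h4]; rfl
        exact this
      · apply hfw
        have : (e * (1 - r ^ n)) w = 0 := by
          rw [mul_sub, mul_one, h3, h4, sub_self]; rfl
        exact this
    refine ⟨r ^ (n - 1), R.pow_mem hr _, ?_⟩
    rw [← pow_succ', Nat.sub_add_cancel hn, h1]

theorem Dich.main {V : Type u} [AddCommGroup V] [Finite V] (hI : IH.{u} (Nat.card V))
    (A : Subgroup (GV V)) (hA : Group.IsSolvable A) (hirr : Irr A)
    (R : Subring (AddMonoid.End V)) (hcomm : ∀ a ∈ R, ∀ b ∈ R, a * b = b * a)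
    (hnorm : ∀ g ∈ A, ∀ r ∈ R,
      (g : AddMonoid.End V) * r * ((g⁻¹ : GV V) : AddMonoid.End V) ∈ R) :
    Group.IsSolvable (cl (Aff A)) ∨ ∀ r ∈ R, r ≠ 0 → ∃ s ∈ R, r * s = 1 :=
  Dich.main' (@Cfsg.Agent.H618.TcStepC.StepC.main) hI A hA hirr R hcomm hnorm

end Cfsg.Agent.H734.TcDich
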